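import Mathlib.GroupTheory.Transfer
import Mathlib.GroupTheory.Coset.Card

/-!
Transfer of a homomorphism stable under conjugation, and averaging of a cocycle.
-/

set_option autoImplicit false

namespace Cfsg.Agent.H96

variable {G A : Type*} [Group G] [CommGroup A] [Finite G]

/-- The transfer of a homomorphism constant on conjugates is a power of it. -/
theorem transfer_apply_of_stable {H : Subgroup G} (ϕ : H →* A)
    (hst : ∀ (h : H) (g : G) (hg : g⁻¹ * (h : G) * g ∈ H), ϕ ⟨g⁻¹ * (h : G) * g, hg⟩ = ϕ h) (h : H) :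
    MonoidHom.transfer ϕ (h : G) = ϕ h ^ H.index := by
  classical
  let := H.fintypeQuotientOfFiniteIndex
  rw [MonoidHom.transfer_eq_prod_quotient_orbitRel_zpowers_quot,
    Subgroup.index_eq_sum_minimalPeriod H (h : G), ← Finset.prod_pow_eq_pow_sum]
  refine Finset.prod_congr rfl fun q _ => ?_
  rw [← map_pow]
  exact hst (h ^ Function.minimalPeriod ((h : G) • ·) q.out) q.out.out _

/-- The transfer takes its values in the range of the homomorphism. -/
theorem transfer_mem_range {H : Subgroup G} (ϕ : H →* A) (g : G) : MonoidHom.transfer ϕ g ∈ ϕ.range := by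
  classical
  let := H.fintypeQuotientOfFiniteIndex
  rw [MonoidHom.transfer_eq_prod_quotient_orbitRel_zpowers_quot]
  exact Subgroup.prod_mem _ fun q _ => ⟨_, rfl⟩

/-- A cocycle vanishing on a subgroup of index prime to the order of the module is the coboundary of an element
of the subgroup its values generate. -/
theorem exists_fixed_of_cocycle [Finite A] (ρ : G →* MulAut A) (D : G → A)
    (hD : ∀ g h, D (g * h) = D g * ρ g (D h)) {S₀ : Subgroup G} (h0 : ∀ h ∈ S₀, D h = 1)
    (hco : S₀.index.Coprime (Nat.card A)) :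
    ∃ ζ ∈ Subgroup.closure (Set.range D), ∀ g, D g * ρ g ζ = ζ := by
  classical
  let := S₀.fintypeQuotientOfFiniteIndex
  set Φ : A := ∏ q : G ⧸ S₀, D q.out with hΦ
  have hwd : ∀ a b : G, (a : G ⧸ S₀) = b → D a = D b := fun a b h => by
    have hm : a⁻¹ * b ∈ S₀ := QuotientGroup.eq.1 h
    have h1 := hD a (a⁻¹ * b)
    rw [mul_inv_cancel_left, h0 _ hm, map_one, mul_one] at h1
    exact h1.symm
  have hact : ∀ g, D g ^ S₀.index * ρ g Φ = Φ := by
    intro g
    have e : D g ^ S₀.index = ∏ _q : G ⧸ S₀, D g := by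
      rw [Finset.prod_const, Finset.card_univ, ← Nat.card_eq_fintype_card, Subgroup.index]
    rw [hΦ, map_prod, e, ← Finset.prod_mul_distrib]
    refine Fintype.prod_equiv (MulAction.toPerm g) _ _ fun q => ?_
    rw [← hD]
    refine hwd _ _ ?_
    rw [QuotientGroup.out_eq', MulAction.toPerm_apply, ← smul_eq_mul, MulAction.Quotient.coe_smul_out]
  have hcm : (Nat.card A).Coprime S₀.index := hco.symm
  set ζ := (powCoprime hcm).symm Φ with hζ
  have hζm : ζ ^ S₀.index = Φ := (powCoprime hcm).apply_symm_apply Φ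
  refine ⟨ζ, Subgroup.zpow_mem _ ?_ _, fun g => (powCoprime hcm).injective ?_⟩
  · rw [hΦ]
    exact Subgroup.prod_mem _ fun q _ => Subgroup.subset_closure ⟨_, rfl⟩
  · show (D g * ρ g ζ) ^ S₀.index = ζ ^ S₀.index
    rw [mul_pow, ← map_pow, hζm, hact g]

end Cfsg.Agent.H96
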