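import Cfsg.Agent.H96.CoreCenter
import Cfsg.Agent.H94.FactorSaturated
import Cfsg.Agent.H94.SatBasic
import Cfsg.Prelude.Def_FusionComponents

/-!
An analogue of Grün's lemma: a perfect fusion system has trivial second centre.
-/
set_option autoImplicit false

namespace Cfsg.Agent.H96

open Cfsg Cfsg.FusionSystem

variable {Ω : Type*} [Group Ω] {S : Subgroup Ω} [Finite S] {F : FusionSystem S}

/-- An element fixed up to the centre by all maps, commuting with `S`, is central. -/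
theorem mem_center_of_fixed_mod_center {p : ℕ} [Fact p.Prime] (hS : IsPGroup p S) (hF : F.IsSaturated p)
    {x : Ω} (hx : x ∈ S) (hxC : ∀ s ∈ S, s * x = x * s)
    (hfix : ∀ (U : Subgroup Ω) (φ : U →* Ω), φ ∈ F.Hom U → ∀ h : x ∈ U, x⁻¹ * φ ⟨x, h⟩ ∈ F.center) :
    x ∈ F.center := by
  suffices hc : F.IsCentral (Subgroup.zpowers x) from
    (le_sSup hc : Subgroup.zpowers x ≤ F.center) (Subgroup.mem_zpowers x)
  refine ⟨Subgroup.zpowers_le.2 hx, fun P φ hφ => ?_⟩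
  let C : ∀ P : Subgroup Ω, (P →* Ω) → Prop := fun P φ =>
    ∃ ψ ∈ F.Hom (P ⊔ Subgroup.zpowers x), (∀ y : P, ψ (Subgroup.inclusion le_sup_left y) = φ y) ∧
      ∀ y : Subgroup.zpowers x, ψ (Subgroup.inclusion le_sup_right y) = y
  suffices h : C P φ from h
  refine H94.alperin_induction hS hF C ?_ ?_ ?_ hφ
  · rintro P R h φ - ⟨ψ, hψ, h1, h2⟩
    exact ⟨res ψ (sup_le_sup_right h _), res_mem F hψ _, fun y => h1 ⟨y, h y.2⟩, fun y => h2 y⟩
  · rintro P Q φ ψ - - ⟨φt, hφt, h1, h2⟩ ⟨ψt, hψt, h3, h4⟩ h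
    have hv : ∀ y, φt y ∈ Q ⊔ Subgroup.zpowers x := by
      have hle : (⊤ : Subgroup ↥(P ⊔ Subgroup.zpowers x)) ≤ (Q ⊔ Subgroup.zpowers x).comap φt := by
        rw [← Subgroup.subgroupOf_self, Subgroup.subgroupOf_sup le_sup_left le_sup_right]
        refine sup_le (fun y hy => ?_) fun y hy => ?_
        · refine Subgroup.mem_sup_left ?_
          show φt (Subgroup.inclusion le_sup_left ⟨y, hy⟩) ∈ Q
          rw [h1]; exact h _
        · refine Subgroup.mem_sup_right ?_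
          show φt (Subgroup.inclusion le_sup_right ⟨y, hy⟩) ∈ Subgroup.zpowers x
          rw [h2]; exact hy
      exact fun y => hle (Subgroup.mem_top y)
    obtain ⟨χ, hχ, hχe⟩ := exists_comp F hφt hψt hv
    refine ⟨χ, hχ, fun y => ?_, fun y => ?_⟩
    · rw [hχe]
      refine Eq.trans ?_ (h3 ⟨φ y, h y⟩)
      exact congrArg ψt (Subtype.ext (h1 y))
    · rw [hχe]
      refine Eq.trans ?_ (h4 y)
      exact congrArg ψt (Subtype.ext (h2 y))
  · intro U hU hc _ α hα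
    have hUS := hU.1
    have := finite_of_le hUS
    have hxU : x ∈ U := hc.2 U (isConj_refl F hUS) ⟨hx, fun u hu => hxC u (hUS hu)⟩
    have hd : ∀ a : F.autGroup U, x⁻¹ * (((a : MulAut U) ⟨x, hxU⟩ : U) : Ω) ∈ F.center := fun a =>
      hfix U _ ((mem_autGroup F hUS).1 a.2) hxU
    have hfc : ∀ (a : F.autGroup U) (z : U), (z : Ω) ∈ F.center → (a : MulAut U) z = z := fun a z hz =>
      Subtype.ext (apply_center F ((mem_autGroup F hUS).1 a.2) hz)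
    let f : F.autGroup U →* U := MonoidHom.mk' (fun a => (⟨x, hxU⟩ : U)⁻¹ * (a : MulAut U) ⟨x, hxU⟩) (by
      intro a b
      have h1 := hfc a ((⟨x, hxU⟩ : U)⁻¹ * (b : MulAut U) ⟨x, hxU⟩) (hd b)
      rw [map_mul, map_inv] at h1
      show (⟨x, hxU⟩ : U)⁻¹ * (a : MulAut U) ((b : MulAut U) ⟨x, hxU⟩) = _
      rw [← h1]
      group)
    have hker : autInducedBy S U ≤ f.ker.map (F.autGroup U).subtype := by
      intro γ hγ
      refine ⟨⟨γ, autInducedBy_le_autGroup F hUS hγ⟩, ?_, rfl⟩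
      obtain ⟨g, hg, hge⟩ := mem_autInducedBy.1 hγ
      rw [SetLike.mem_coe, MonoidHom.mem_ker]
      show (⟨x, hxU⟩ : U)⁻¹ * γ ⟨x, hxU⟩ = 1
      rw [inv_mul_eq_one]
      refine Subtype.ext (Eq.trans ?_ (hge ⟨x, hxU⟩).symm)
      show x = g * x * g⁻¹
      rw [hxC g hg, mul_inv_cancel_right]
    have htop : f.ker = ⊤ := by
      obtain ⟨-, T, hT⟩ := (H94.fullyNormalized_spec hS hF hU).1
      have hle : T.toSubgroup ≤ f.ker := by
        rw [hT]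
        intro a ha
        obtain ⟨b, hb, he⟩ := hker (Subgroup.mem_subgroupOf.1 ha)
        rwa [Subtype.ext he.symm]
      refine Subgroup.index_eq_one.1 ?_
      have hnd : ¬ p ∣ f.ker.index := fun h => T.not_dvd_index (h.trans (Subgroup.index_dvd_of_le hle))
      rw [Subgroup.index_ker] at hnd ⊢
      obtain ⟨n, hn⟩ := ((hS.to_le hUS).to_subgroup f.range).exists_card_eq
      rw [hn] at hnd ⊢
      rcases n with _ | n
      · rfl
      · exact absurd (dvd_pow_self p (Nat.succ_ne_zero n)) hnd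
    have hαx : α ⟨x, hxU⟩ = ⟨x, hxU⟩ := by
      have h1 : (⟨α, hα⟩ : F.autGroup U) ∈ f.ker := by rw [htop]; exact Subgroup.mem_top _
      exact (inv_mul_eq_one.1 (MonoidHom.mem_ker.1 h1)).symm
    have hle : Subgroup.zpowers x ≤ U := Subgroup.zpowers_le.2 hxU
    refine ⟨res (U.subtype.comp α.toMonoidHom) (sup_le le_rfl hle), res_mem F ((mem_autGroup F hUS).1 hα) _,
      fun y => rfl, ?_⟩
    rintro ⟨y, hy⟩
    obtain ⟨k, rfl⟩ := Subgroup.mem_zpowers_iff.1 hy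
    show ((α ⟨x ^ k, _⟩ : U) : Ω) = x ^ k
    rw [show (⟨x ^ k, hle hy⟩ : U) = (⟨x, hxU⟩ : U) ^ k from Subtype.ext (by rw [Subgroup.coe_zpow]),
      map_zpow, hαx]
    rfl

variable {Ω' : Type*} [Group Ω'] {S' : Subgroup Ω'} [Finite S'] {θ : S →* Ω'} {E : FusionSystem S'}

/-- Maps of `F` fix, modulo the centre, the elements over the centre of the factor system. -/
theorem exists_lift_fix (hE : F.IsFactorSystem F.center θ E) {x : Ω} (hx : x ∈ S)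
    (hxc : θ ⟨x, hx⟩ ∈ E.center) {R : Subgroup Ω} {φ : R →* Ω} (hφ : φ ∈ F.Hom R) :
    ∃ (K : Subgroup Ω) (hRK : R ≤ K) (hxK : x ∈ K) (ψ : K →* Ω), ψ ∈ F.Hom K ∧
      x⁻¹ * ψ ⟨x, hxK⟩ ∈ F.center ∧ ∀ r : R, (φ r)⁻¹ * ψ ⟨r, hRK r.2⟩ ∈ F.center := by
  obtain ⟨hZS, hker, hrange, hHom⟩ := hE
  obtain ⟨hRS, hφS⟩ := F.le_of_mem hφ
  have hsc : F.StronglyClosed F.center := ⟨hZS, fun U hU χ hχ u => by
    rw [apply_center F hχ (hU u.2)]; exact hU u.2⟩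
  obtain ⟨φ₁, hφ₁, h1, -⟩ := (isCentral_center F).2 R φ hφ
  set P' : Subgroup Ω' := imageAlong θ R with hP'def
  have hP'S : P' ≤ S' := by
    rw [← hrange]; rintro _ ⟨s, -, rfl⟩; exact ⟨s, rfl⟩
  have hle : preimageAlong θ P' ≤ R ⊔ F.center := by
    rintro _ ⟨y, hy, rfl⟩
    obtain ⟨r, hr, hry⟩ := hy
    have hz : (((r⁻¹ * y : S)) : Ω) ∈ F.center := (hker _).1 (by rw [map_mul, map_inv, hry, inv_mul_cancel])
    have : ((y : S) : Ω) = (r : Ω) * ((r⁻¹ * y : S) : Ω) := by simp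
    show (y : Ω) ∈ R ⊔ F.center
    rw [this]
    exact Subgroup.mul_mem_sup hr hz
  obtain ⟨φ', hind⟩ := H94.exists_induced hsc hker hrange hP'S (res_mem F hφ₁ hle)
  have hφ' : φ' ∈ E.Hom P' := (hHom P' φ').2 ⟨hP'S, _, res_mem F hφ₁ hle, hind⟩
  obtain ⟨ψ', hψ', h3, h4⟩ := (isCentral_center E).2 P' φ' hφ'
  obtain ⟨-, ψ, hψ, hψind⟩ := (hHom _ ψ').1 hψ'
  obtain ⟨hKS, hψS, hψK, hψe⟩ := hψind
  obtain ⟨hχP, hχS, hχK, hχe⟩ := hind
  have hxK : x ∈ preimageAlong θ (P' ⊔ E.center) := ⟨⟨x, hx⟩, Subgroup.mem_sup_right hxc, rfl⟩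
  have hRK : R ≤ preimageAlong θ (P' ⊔ E.center) := fun r hr =>
    ⟨⟨r, hRS hr⟩, Subgroup.mem_sup_left ⟨⟨r, hRS hr⟩, hr, rfl⟩, rfl⟩
  have hdiv : ∀ a b : S, θ a = θ b → (a : Ω)⁻¹ * b ∈ F.center := fun a b h =>
    (hker (a⁻¹ * b)).1 (by rw [map_mul, map_inv, h, inv_mul_cancel])
  refine ⟨_, hRK, hxK, ψ, hψ, hdiv ⟨x, hx⟩ ⟨_, hψS _⟩ ?_, fun r => hdiv ⟨φ r, hφS r⟩ ⟨_, hψS _⟩ ?_⟩
  · rw [← hψe ⟨x, hxK⟩]
    exact (h4 ⟨θ ⟨x, hx⟩, hxc⟩).symm
  · rw [← hψe ⟨r, hRK r.2⟩]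
    have hrP : (r : Ω) ∈ preimageAlong θ P' := ⟨⟨r, hRS r.2⟩, ⟨⟨r, hRS r.2⟩, r.2, rfl⟩, rfl⟩
    have e1 := h3 ⟨θ ⟨r, hRS r.2⟩, hχK ⟨r, hrP⟩⟩
    refine Eq.trans ?_ (e1.symm.trans ?_)
    swap
    · rfl
    rw [hχe ⟨r, hrP⟩]
    exact congrArg θ (Subtype.ext (h1 r).symm)

end Cfsg.Agent.H96

namespace Cfsg.Agent.H96

open Cfsg Cfsg.FusionSystem
open scoped commutatorElement

variable {Ω : Type*} [Group Ω] {S : Subgroup Ω} [Finite S] {F : FusionSystem S}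
  {Ω' : Type*} [Group Ω'] {S' : Subgroup Ω'} [Finite S'] {θ : S →* Ω'} {E : FusionSystem S'}

theorem center_comm {z s : Ω} (hz : z ∈ F.center) (hs : s ∈ S) : s * z = z * s :=
  Subgroup.mem_centralizer_iff.1 (center_le F hz).2 s hs

/-- Commutators with an element over the centre of the factor system are invariant under all maps. -/
theorem commutator_invariant (hE : F.IsFactorSystem F.center θ E) {x : Ω} (hx : x ∈ S)
    (hxc : θ ⟨x, hx⟩ ∈ E.center) {R : Subgroup Ω} {φ : R →* Ω} (hφ : φ ∈ F.Hom R) (r : R) :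
    ⁅x, φ r⁆ = ⁅x, (r : Ω)⁆ := by
  have hmem : ∀ s ∈ S, ⁅x, s⁆ ∈ F.center := by
    intro s hs
    have hc := Subgroup.mem_centralizer_iff.1 (center_le E hxc).2 (θ ⟨s, hs⟩) (by
      show θ ⟨s, hs⟩ ∈ S'
      rw [← hE.2.2.1]; exact ⟨_, rfl⟩)
    refine (hE.2.1 ⁅(⟨x, hx⟩ : S), ⟨s, hs⟩⁆).1 ?_
    rw [map_commutatorElement, commutatorElement_eq_one_iff_mul_comm]
    exact hc.symm
  obtain ⟨K, hRK, hxK, ψ, hψ, h1, h2⟩ := exists_lift_fix hE hx hxc hφ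
  have hrS : (r : Ω) ∈ S := (F.le_of_mem hφ).1 r.2
  have hφr := (F.le_of_mem hφ).2 r
  have hc : ((⁅(⟨x, hxK⟩ : K), ⟨r, hRK r.2⟩⁆ : K) : Ω) ∈ F.center := hmem _ hrS
  have h3 := apply_center F hψ hc
  rw [map_commutatorElement] at h3
  have e1 : ψ ⟨x, hxK⟩ = x * (x⁻¹ * ψ ⟨x, hxK⟩) := by group
  have e2 : ψ ⟨r, hRK r.2⟩ = φ r * ((φ r)⁻¹ * ψ ⟨r, hRK r.2⟩) := by group
  refine Eq.trans ?_ h3
  rw [e1, e2]
  generalize x⁻¹ * ψ ⟨x, hxK⟩ = a at h1
  replace h2 := h2 r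
  generalize (φ r)⁻¹ * ψ ⟨r, hRK r.2⟩ = b at h2
  have ha : ∀ s ∈ S, s * a = a * s := fun s hs => center_comm h1 hs
  have hb : ∀ s ∈ S, s * b = b * s := fun s hs => center_comm h2 hs
  have haS : a ∈ S := (center_le F h1).1
  have hx' : a * φ r = φ r * a := (ha _ hφr).symm
  have hbx : b * x = x * b := (hb _ hx).symm
  have hab : a * b = b * a := (center_comm h2 haS)
  rw [commutatorElement_def, commutatorElement_def]
  symm
  calc x * a * (φ r * b) * (x * a)⁻¹ * (φ r * b)⁻¹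
      = x * (a * φ r) * b * a⁻¹ * x⁻¹ * b⁻¹ * (φ r)⁻¹ := by group
    _ = x * φ r * (a * b) * a⁻¹ * x⁻¹ * b⁻¹ * (φ r)⁻¹ := by rw [hx']; group
    _ = x * φ r * b * x⁻¹ * b⁻¹ * (φ r)⁻¹ := by rw [hab]; group
    _ = x * φ r * x⁻¹ * (x * b) * x⁻¹ * b⁻¹ * (φ r)⁻¹ := by group
    _ = x * φ r * x⁻¹ * (φ r)⁻¹ := by rw [← hbx]; group

/-- Grün's lemma for fusion systems. -/
theorem center_eq_bot_of_perfect {p : ℕ} [Fact p.Prime] (hS : IsPGroup p S) (hF : F.IsSaturated p)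
    (hperf : F.hyperfocalSubgroup p = S) (hE : F.IsFactorSystem F.center θ E) : E.center = ⊥ := by
  rw [eq_bot_iff]
  intro c hc
  have hcr : c ∈ θ.range := by rw [hE.2.2.1]; exact (center_le E hc).1
  obtain ⟨⟨x, hx⟩, rfl⟩ := hcr
  have hxC : ∀ s ∈ S, s * x = x * s := by
    intro s hs
    have hle : F.hyperfocalSubgroup p ≤ Subgroup.centralizer {x} := by
      rw [FusionSystem.hyperfocalSubgroup, Subgroup.closure_le]
      rintro _ ⟨R, γ, z, hR, -, rfl⟩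
      have h := commutator_invariant hE hx hc ((mem_autGroup F hR).1 γ.2) z
      rw [SetLike.mem_coe, Subgroup.mem_centralizer_iff]
      rintro w (rfl : w = x)
      change ⁅w, (((γ : MulAut R) z : R) : Ω)⁆ = ⁅w, (z : Ω)⁆ at h
      have hzS : (z : Ω) ∈ S := hR z.2
      have hcZ : ⁅w, (z : Ω)⁆ ∈ F.center := by
        have hcc := Subgroup.mem_centralizer_iff.1 (center_le E hc).2 (θ ⟨z, hzS⟩) (by
          show θ ⟨z, hzS⟩ ∈ S'
          rw [← hE.2.2.1]; exact ⟨_, rfl⟩)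
        refine (hE.2.1 ⁅(⟨w, hx⟩ : S), ⟨z, hzS⟩⁆).1 ?_
        rw [map_commutatorElement, commutatorElement_eq_one_iff_mul_comm]
        exact hcc.symm
      have hzc := center_comm hcZ (S.inv_mem hzS)
      generalize (((γ : MulAut R) z : R) : Ω) = t at h ⊢
      have ht : w * t * w⁻¹ = ⁅w, (z : Ω)⁆ * t := by rw [← h, commutatorElement_def]; group
      have hz' : w * (z : Ω) * w⁻¹ = ⁅w, (z : Ω)⁆ * z := by rw [commutatorElement_def]; group
      calc w * ((z : Ω)⁻¹ * t) = (w * (z : Ω) * w⁻¹)⁻¹ * (w * t * w⁻¹) * w := by group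
        _ = (z : Ω)⁻¹ * t * w := by rw [ht, hz']; group
    have hsm : s ∈ F.hyperfocalSubgroup p := hperf.symm ▸ hs
    exact (Subgroup.mem_centralizer_iff.1 (hle hsm) x rfl).symm
  have hxZ : x ∈ F.center := mem_center_of_fixed_mod_center hS hF hx hxC fun U φ hφ h => by
    obtain ⟨K, hUK, hxK, ψ, hψ, h1, h2⟩ := exists_lift_fix hE hx hc hφ
    have h3 := F.center.mul_mem h1 (F.center.inv_mem (h2 ⟨x, h⟩))
    simpa [mul_assoc] using h3
  exact Subgroup.mem_bot.2 ((hE.2.1 ⟨x, hx⟩).2 hxZ)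

end Cfsg.Agent.H96
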