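import Cfsg.Agent.H96.Simple
import Cfsg.Agent.H93.Group
import Cfsg.Agent.H94.SatBasic
import Cfsg.Agent.H6.PSL

/-!
The 2-fusion system of `PSL₂(q)`, `q² ≡ 1 mod 16`, is simple.
-/
set_option autoImplicit false

namespace Cfsg.Agent.H96

open Cfsg

/-- A finite 2-group with a cyclic subgroup of index two outside which all elements are inverting involutions,
of order at least eight: it is generated by involutions and its automorphism group is a 2-group. -/
theorem dihedral_two_group_facts {G : Type*} [Group G] [Finite G] (hG : IsPGroup 2 G) (C : Subgroup G)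
    (hC : IsCyclic C) (hidx : C.index = 2) (hout : ∀ x, x ∉ C → x * x = 1) (hcard : 8 ≤ Nat.card G) :
    Subgroup.closure {x : G | orderOf x = 2} = ⊤ ∧ IsPGroup 2 (MulAut G) := by
  obtain ⟨w, hw⟩ : ∃ w, w ∉ C := by
    by_contra h
    push Not at h
    rw [(Subgroup.eq_top_iff' C).2 h, Subgroup.index_top] at hidx
    omega
  have hord : ∀ x, x ∉ C → orderOf x = 2 := fun x hx =>
    orderOf_eq_prime (by rw [sq]; exact hout x hx) fun h => hx (h ▸ C.one_mem)
  refine ⟨(Subgroup.eq_top_iff' _).2 fun x => ?_, ?_⟩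
  · by_cases hx : x ∈ C
    · have h1 : w * x ∉ C := fun h => hw ((mul_mem_cancel_right hx).1 h)
      have := Subgroup.mul_mem _ (Subgroup.subset_closure (k := {x : G | orderOf x = 2}) (hord w hw))
        (Subgroup.subset_closure (hord _ h1))
      rwa [← mul_assoc, hout w hw, one_mul] at this
    · exact Subgroup.subset_closure (hord x hx)
  · obtain ⟨c, hc⟩ := IsCyclic.exists_ofOrder_eq_natCard (α := C)
    have hcm := C.card_mul_index
    rw [hidx] at hcm
    have hc3 : 3 ≤ orderOf (c : G) := by rw [Subgroup.orderOf_coe, hc]; omega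
    have hinv : ∀ α : MulAut G, ∀ x ∈ C, α x ∈ C := by
      intro α x hx
      have hαc : α (c : G) ∈ C := by
        by_contra h
        have h2 := hord _ h
        rw [MulEquiv.orderOf_eq] at h2
        omega
      have htop : Subgroup.zpowers c = ⊤ := Subgroup.eq_top_of_card_eq _ (by rw [Nat.card_zpowers, hc])
      obtain ⟨k, hk⟩ := Subgroup.mem_zpowers_iff.1 (htop.symm ▸ Subgroup.mem_top (⟨x, hx⟩ : C))
      have hx' : x = (c : G) ^ k := by rw [← Subgroup.coe_zpow, hk]
      rw [hx', map_zpow]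
      exact C.zpow_mem hαc k
    have : Finite (MulAut G) := Finite.of_injective (fun e : MulAut G => (e : G → G)) DFunLike.coe_injective
    let r : MulAut G →* MulAut C :=
      { toFun := fun α =>
          { toFun := fun x => ⟨α x, hinv α x x.2⟩
            invFun := fun x => ⟨α⁻¹ x, hinv α⁻¹ x x.2⟩
            left_inv := fun x => Subtype.ext (α.symm_apply_apply x)
            right_inv := fun x => Subtype.ext (α.apply_symm_apply x)
            map_mul' := fun x y => Subtype.ext (map_mul α (x : G) y) }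
        map_one' := MulEquiv.ext fun x => Subtype.ext rfl
        map_mul' := fun α β => MulEquiv.ext fun x => Subtype.ext rfl }
    obtain ⟨e, he⟩ := (hG.to_subgroup C).exists_card_eq
    intro α
    have hr : (r α) ^ 2 ^ (e - 1) = 1 := by
      have h := pow_card_eq_one' (x := r α)
      rw [IsCyclic.card_mulAut, he] at h
      rcases e with _ | e
      · simp only [pow_zero, Nat.totient_one, pow_one] at h
        simpa using h
      · rw [Nat.totient_prime_pow_succ Nat.prime_two, show 2 - 1 = 1 from rfl, mul_one] at h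
        exact h
    rw [← map_pow] at hr
    refine ⟨(e - 1) + e, ?_⟩
    rw [pow_add, pow_mul]
    generalize α ^ 2 ^ (e - 1) = β at hr
    have hfix : ∀ x ∈ C, β x = x := fun x hx =>
      congrArg Subtype.val (DFunLike.congr_fun hr ⟨x, hx⟩)
    have hd : w⁻¹ * β w ∈ C := by
      rw [Subgroup.mul_mem_iff_of_index_two hidx]
      refine iff_of_false (fun h => hw (inv_mem_iff.1 h)) fun h => hw ?_
      have := hinv β⁻¹ _ h
      rwa [MulAut.inv_apply_self] at this
    have hpow : ∀ m : ℕ, (β ^ m) w = w * (w⁻¹ * β w) ^ m := by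
      intro m
      induction m with
      | zero => simp
      | succ m ih =>
        rw [pow_succ', MulAut.mul_apply, ih, map_mul, map_pow, hfix _ hd, pow_succ']
        simp [mul_assoc]
    have hone : (w⁻¹ * β w) ^ 2 ^ e = 1 := by
      have h := pow_card_eq_one' (x := (⟨_, hd⟩ : C))
      rw [he] at h
      exact congrArg Subtype.val h
    refine MulEquiv.ext fun x => ?_
    rw [MulAut.one_apply]
    have hfix' : ∀ y ∈ C, ∀ m : ℕ, (β ^ m) y = y := by
      intro y hy m
      induction m with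
      | zero => simp
      | succ m ih => rw [pow_succ', MulAut.mul_apply, ih, hfix y hy]
    by_cases hx : x ∈ C
    · exact hfix' x hx _
    · have h1 : w⁻¹ * x ∈ C := (Subgroup.mul_mem_iff_of_index_two hidx).2
        (iff_of_false (fun h => hw (inv_mem_iff.1 h)) hx)
      calc (β ^ 2 ^ e) x = (β ^ 2 ^ e) w * (β ^ 2 ^ e) (w⁻¹ * x) := by rw [← map_mul, mul_inv_cancel_left]
        _ = w * (w⁻¹ * x) := by rw [hpow, hone, mul_one, hfix' _ h1]
        _ = x := mul_inv_cancel_left w x

open Matrix MatrixGroups in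
/-- The 2-fusion system of `PSL₂(q)` with `q² ≡ 1 mod 16` is simple. -/
theorem psl2_isSimple {F : Type*} [Field F] [Fintype F] (hodd : Fintype.card F % 2 = 1)
    (h16 : 16 ∣ Fintype.card F ^ 2 - 1) (S : Sylow 2 PSL(2, F)) :
    (groupFusionSystem (S : Subgroup PSL(2, F))).IsSimple 2 := by
  classical
  set q := Fintype.card F with hq
  have h2 : (2 : F) ≠ 0 := H6.two_ne_of_odd hq.symm (Nat.odd_iff.2 hodd)
  have h8 : 8 ∣ Nat.card PSL(2, F) := by
    have h := H6.card_psl2_mul (F := F) hq.symm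
    have hg : Nat.gcd 2 (q - 1) = 2 := Nat.gcd_eq_left (by omega)
    rw [hg] at h
    have h16' : 2 * 8 ∣ Nat.card PSL(2, F) * 2 := h ▸ Dvd.dvd.mul_left h16 q
    rw [mul_comm (Nat.card _) 2] at h16'
    exact Nat.dvd_of_mul_dvd_mul_left two_pos h16'
  have : Fact (Nat.Prime 2) := ⟨Nat.prime_two⟩
  have hS8 : 2 ^ 3 ∣ Nat.card (S : Subgroup PSL(2, F)) := S.pow_dvd_card_of_pow_dvd_card h8
  have hScard : 8 ≤ Nat.card (S : Subgroup PSL(2, F)) := Nat.le_of_dvd Nat.card_pos hS8
  have : Nontrivial (S : Subgroup PSL(2, F)) := Finite.one_lt_card_iff_nontrivial.1 (by omega)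
  obtain ⟨z₀, hz₀⟩ : ∃ z : Subgroup.center (S : Subgroup PSL(2, F)), orderOf z = 2 := by
    have := S.isPGroup'.center_nontrivial
    obtain ⟨n, hn, hcard⟩ := (S.isPGroup'.to_subgroup _).nontrivial_iff_card.1 this
    exact exists_prime_orderOf_dvd_card' 2 (hcard ▸ dvd_pow_self 2 hn.ne')
  set z : PSL(2, F) := ((z₀ : (S : Subgroup PSL(2, F))) : PSL(2, F)) with hzdef
  have hz : orderOf z = 2 := by rw [hzdef, Subgroup.orderOf_coe, Subgroup.orderOf_coe, hz₀]
  obtain ⟨g, hg⟩ := H6.π_surjective z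
  have ht : H6.tr g = 0 := (H6.orderOf_π_eq_two_iff h2).1 (hg.symm ▸ hz)
  have htss := H6.ss_of_tr_zero h2 ht
  have hST : (S : Subgroup PSL(2, F)) ≤ H6.torDih g := fun x hx =>
    (H6.mem_centralizer_involution h2 ht).1 (by
      rw [hg]
      exact congrArg Subtype.val (Subgroup.mem_center_iff.1 z₀.2 ⟨x, hx⟩))
  have := H6.tor_cyclic htss
  set C : Subgroup (S : Subgroup PSL(2, F)) := (H6.tor g).subgroupOf (S : Subgroup PSL(2, F)) with hCdef
  have hCcyc : IsCyclic C := by
    let f : C →* H6.tor g :=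
      { toFun := fun x => ⟨((x : (S : Subgroup PSL(2, F))) : PSL(2, F)), Subgroup.mem_subgroupOf.1 x.2⟩
        map_one' := rfl
        map_mul' := fun _ _ => rfl }
    exact isCyclic_of_injective f fun a b h => Subtype.ext (Subtype.ext (Subtype.ext_iff.1 h :))
  have hnle : ¬ (S : Subgroup PSL(2, F)) ≤ H6.tor g := by
    intro h
    have h3 : 2 * Nat.card (S : Subgroup PSL(2, F)) ∣ Nat.card PSL(2, F) := by
      refine dvd_trans ?_ (Subgroup.card_subgroup_dvd_card (H6.torDih g))
      rw [H6.card_torDih htss]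
      exact Nat.mul_dvd_mul_left 2 (Subgroup.card_dvd_of_le h)
    rw [← (S : Subgroup PSL(2, F)).card_mul_index, mul_comm 2] at h3
    exact S.not_dvd_index (Nat.dvd_of_mul_dvd_mul_left Nat.card_pos h3)
  have hidxT : ((H6.tor g).subgroupOf (H6.torDih g)).index = 2 := by
    have h := ((H6.tor g).subgroupOf (H6.torDih g)).card_mul_index
    rw [Nat.card_congr (Subgroup.subgroupOfEquivOfLe (H6.tor_le_torDih g)).toEquiv, H6.card_torDih htss,
      mul_comm 2] at h
    exact Nat.eq_of_mul_eq_mul_left Nat.card_pos h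
  have hCidx : C.index = 2 := by
    obtain ⟨w, hw, hwT⟩ := SetLike.not_le_iff_exists.1 hnle
    refine Subgroup.index_eq_two_iff.2 ⟨⟨w, hw⟩, fun b => ?_⟩
    have key : ((b : PSL(2, F)) * w ∈ H6.tor g) ↔ ((b : PSL(2, F)) ∈ H6.tor g ↔ w ∈ H6.tor g) :=
      Subgroup.mul_mem_iff_of_index_two hidxT (a := ⟨b, hST b.2⟩) (b := ⟨w, hST hw⟩)
    show Xor ((b : PSL(2, F)) * w ∈ H6.tor g) ((b : PSL(2, F)) ∈ H6.tor g)
    rw [key]
    by_cases hb : (b : PSL(2, F)) ∈ H6.tor g
    · exact Or.inr ⟨hb, fun h => hwT (h.1 hb)⟩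
    · exact Or.inl ⟨iff_of_false hb hwT, hb⟩
  obtain ⟨hgen, haut⟩ := dihedral_two_group_facts S.isPGroup' C hCcyc hCidx
    (fun x hx => Subtype.ext (H6.outside_torDih htss (hST x.2) fun h => hx (Subgroup.mem_subgroupOf.2 h)).1)
    hScard
  have hsat := H93.isSaturated_groupFusionSystem S
  refine isSimple_of_transitive 2 S.isPGroup' _ hsat
    ((Subgroup.nontrivial_iff_ne_bot _).1 inferInstance) ?_ ?_ ?_
  · have h := congrArg (Subgroup.map (S : Subgroup PSL(2, F)).subtype) hgen
    rw [MonoidHom.map_closure, ← MonoidHom.range_eq_map, Subgroup.range_subtype] at h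
    conv_rhs => rw [← h]
    congr 1
    ext x
    constructor
    · rintro ⟨hx, ho⟩
      exact ⟨⟨x, hx⟩, (Subgroup.orderOf_mk x hx).trans ho, rfl⟩
    · rintro ⟨y, hy, rfl⟩
      exact ⟨y.2, (Subgroup.orderOf_coe y).trans hy⟩
  · intro A B hA hB hcA hcB
    have hex : ∀ A : Subgroup PSL(2, F), Nat.card A = 2 → ∃ a, orderOf a = 2 ∧ A = Subgroup.zpowers a := by
      intro A hA
      obtain ⟨a, ha⟩ := exists_prime_orderOf_dvd_card' (G := A) 2 (dvd_of_eq hA.symm)
      have ho : orderOf (a : PSL(2, F)) = 2 := by rw [Subgroup.orderOf_coe, ha]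
      exact ⟨a, ho, (Subgroup.eq_of_le_of_card_ge (Subgroup.zpowers_le.2 a.2)
        (by rw [Nat.card_zpowers, ho, hA])).symm⟩
    obtain ⟨a, ha, rfl⟩ := hex A hcA
    obtain ⟨b, hb, rfl⟩ := hex B hcB
    obtain ⟨k, hk⟩ := isConj_iff.1 (H6.isConj_involutions h2 ha hb)
    refine (H93.isConj_groupFusion_iff S).2 ⟨hA, hB, k, ?_⟩
    rw [MonoidHom.map_zpowers]
    exact congrArg Subgroup.zpowers hk
  · have hn : (groupFusionSystem (S : Subgroup PSL(2, F))).IsFullyNormalized (S : Subgroup PSL(2, F)) :=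
      ⟨le_rfl, fun R hR => le_of_le_of_eq (Subgroup.card_le_of_le inf_le_left)
        (by congr 2; exact le_antisymm (le_inf le_rfl Subgroup.le_normalizer) inf_le_left)⟩
    obtain ⟨-, T, hT⟩ := (H94.fullyNormalized_spec S.isPGroup' hsat hn).1
    have htop : T.toSubgroup = ⊤ := by
      have h := T.is_maximal' ((haut.to_subgroup _).of_equiv Subgroup.topEquiv.symm) le_top
      exact h.symm
    rw [hT, Subgroup.subgroupOf_eq_top] at htop
    refine le_antisymm (fun α hα => ?_) (H93.inn_le_autGroup _ le_rfl)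
    rw [H93.inn_eq_autInducedBy]
    exact htop hα

end Cfsg.Agent.H96
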